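import Cfsg.Agent.H6.LR.LM.D0

set_option autoImplicit false
set_option maxRecDepth 100000
set_option Elab.async false

namespace Cfsg.H6.LR.LM

open Ly.M (P ok)

theorem d20 : Nat.beq (trF (P.img P.d code) [3] (code 1)) (code 20) = true := by
  decide +kernel

theorem d21 : Nat.beq (trF (P.img P.d code) [3] (code 2)) (code 21) = true := by
  decide +kernel

theorem d22 : Nat.beq (trF (P.img P.d code) [4,5] (code 1)) (code 22) = true := by
  decide +kernel

theorem d23 : Nat.beq (trF (P.img P.d code) [6] (code 3)) (code 23) = true := by
  decide +kernel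

theorem d24 : Nat.beq (trF (P.img P.d code) [7] (code 3)) (code 24) = true := by
  decide +kernel

theorem d25 : Nat.beq (trF (P.img P.d code) [7] (code 6)) (code 25) = true := by
  decide +kernel

theorem d26 : Nat.beq (trF (P.img P.d code) [5] (code 8)) (code 26) = true := by
  decide +kernel

theorem d27 : Nat.beq (trF (P.img P.d code) [6] (code 8)) (code 27) = true := by
  decide +kernel

theorem d28 : Nat.beq (trF (P.img P.d code) [7] (code 8)) (code 28) = true := by
  decide +kernel

theorem d29 : Nat.beq (trF (P.img P.d code) [4,6,3] (code 8)) (code 29) = true := by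
  decide +kernel

theorem d30 : Nat.beq (trF (P.img P.d code) [4,7,3] (code 8)) (code 30) = true := by
  decide +kernel

theorem d31 : Nat.beq (trF (P.img P.d code) [2,7,2] (code 18)) (code 31) = true := by
  decide +kernel

theorem d32 : Nat.beq (trF (P.img P.d code) [2,3] (code 4)) (code 32) = true := by
  decide +kernel

theorem d33 : Nat.beq (trF (P.img P.d code) [3,15,3,14,1,18,5] (code 18)) (code 33) = true := by
  decide +kernel

theorem d34 : Nat.beq (trF (P.img P.d code) [1,6,1,6] (code 17)) (code 34) = true := by
  decide +kernel

theorem d35 : Nat.beq (trF (P.img P.d code) [14,16,34,15,13,15] (code 16)) (code 35) = true := by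
  decide +kernel

theorem d36 : Nat.beq (trF (P.img P.d code) [16,34,15,13] (code 14)) (code 36) = true := by
  decide +kernel

theorem d37 : Nat.beq (trF (P.img P.d code) [3,15,4,18] (code 18)) (code 37) = true := by
  decide +kernel

theorem d38 : Nat.beq (trF (P.img P.d code) [38] (code 37)) P.one = true := by
  decide +kernel

theorem d39 : Nat.beq (trF (P.img P.d code) [8,7,2,7,5,7,2,1,3,3,3,2,8,5,8,6,8,6,8,6,7,1,2,3,1,5,4,8,2] (code 4)) (code 39) = true := by
  decide +kernel


end Cfsg.H6.LR.LM
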