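import Cfsg.Agent.H6.LR.LM.D0

set_option autoImplicit false
set_option maxRecDepth 100000
set_option Elab.async false

namespace Cfsg.H6.LR.LM

open Ly.M (P ok)

theorem d40 : Nat.beq (trF (P.img P.d code) [8,1,7,8,3,7,6,2,5,4,2,7,1,5,8,3,3,6,3,8] (code 39)) (code 40) = true := by
  decide +kernel

theorem d41 : Nat.beq (trF (P.img P.d code) [7,5,3,1,5,3,2,6,4,6,5,8,7,6,3,8,6,7,4,7,4,6,2,3,6,1,8,7,6] (code 8)) (code 41) = true := by
  decide +kernel

theorem d42 : Nat.beq (trF (P.img P.d code) [1,6,2,3,2,1,8,7,4,7,2,3,8,4,4,1] (code 41)) (code 42) = true := by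
  decide +kernel

theorem d43 : Nat.beq (trF (P.img P.d code) [2,6,8,5,7,4,5,3,7,5,4,7,8,3,8,2,7,1,5,2,7,3,2,1,8,5,2,8,1] (code 5)) (code 43) = true := by
  decide +kernel

theorem d44 : Nat.beq (trF (P.img P.d code) [3,5,3,1,3,6,8,5,1,3,6,5,6,3,8,1] (code 43)) (code 44) = true := by
  decide +kernel

theorem d45 : Nat.beq (trF (P.img P.d code) [42,44] (code 40)) (code 45) = true := by
  decide +kernel

theorem d46 : Nat.beq (trF (P.img P.d code) [45,45] (code 45)) (code 46) = true := by
  decide +kernel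

theorem d47 : Nat.beq (trF (P.img P.d code) [46,37] (code 38)) (code 47) = true := by
  decide +kernel

theorem d48 : Nat.beq (trF (P.img P.d code) [18,7,1,18,9,4,16,13] (code 1)) (code 48) = true := by
  decide +kernel


end Cfsg.H6.LR.LM
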