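import Cfsg.Agent.H6.LR.LM.D0

set_option autoImplicit false
set_option maxRecDepth 100000
set_option Elab.async false

namespace Cfsg.H6.LR.LM

open Ly.M (P ok)

theorem d49 : Nat.beq (trF (P.img P.d code) [2,6] (code 3)) (code 49) = true := by
  decide +kernel

theorem d50 : Nat.beq (trF (P.img P.d code) [5,7] (code 19)) (code 50) = true := by
  decide +kernel

theorem d51 : Nat.beq (trF (P.img P.d code) [50] (code 50)) (code 51) = true := by
  decide +kernel

theorem d52 : Nat.beq (trF (P.img P.d code) [8] (code 19)) (code 52) = true := by
  decide +kernel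

theorem d53 : Nat.beq (trF (P.img P.d code) [19,6,4] (code 8)) (code 53) = true := by
  decide +kernel

theorem d54 : Nat.beq (trF (P.img P.d code) [1,5,8] (code 19)) (code 54) = true := by
  decide +kernel

theorem r0 : Nat.beq (trF (P.img P.d code) [3,3] (code 3)) P.one = true := by
  decide +kernel

theorem r1 : Nat.beq (trF (P.img P.d code) [20,20] (code 20)) P.one = true := by
  decide +kernel

theorem r2 : Nat.beq (trF (P.img P.d code) [21,21] (code 21)) P.one = true := by
  decide +kernel

theorem r3 : Nat.beq (trF (P.img P.d code) [2,1,2,3,1,2,1,2,4] (code 1)) P.one = true := by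
  decide +kernel

theorem r4 : Nat.beq (trF (P.img P.d code) [5,3,5] (code 3)) P.one = true := by
  decide +kernel

theorem r5 : Nat.beq (trF (P.img P.d code) [5,2,5] (code 2)) P.one = true := by
  decide +kernel

theorem r6 : Nat.beq (trF (P.img P.d code) [22] (code 22)) P.one = true := by
  decide +kernel

theorem r7 : Nat.beq (trF (P.img P.d code) [5,6,2,6] (code 2)) P.one = true := by
  decide +kernel

theorem r8 : Nat.beq (trF (P.img P.d code) [23,23] (code 23)) P.one = true := by
  decide +kernel

theorem r9 : Nat.beq (trF (P.img P.d code) [2,1,6,1,2,5,1,6] (code 1)) P.one = true := by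
  decide +kernel

theorem r10 : Nat.beq (trF (P.img P.d code) [24,24] (code 24)) P.one = true := by
  decide +kernel

theorem r11 : Nat.beq (trF (P.img P.d code) [4,7,5,1,5,7,5] (code 1)) P.one = true := by
  decide +kernel

theorem r12 : Nat.beq (trF (P.img P.d code) [2,1,5,1,7,2,7,1,5] (code 1)) P.one = true := by
  decide +kernel

theorem r13 : Nat.beq (trF (P.img P.d code) [25,25] (code 25)) P.one = true := by
  decide +kernel

theorem r14 : Nat.beq (trF (P.img P.d code) [1,8,1] (code 8)) P.one = true := by
  decide +kernel

theorem r15 : Nat.beq (trF (P.img P.d code) [2,8,2] (code 8)) P.one = true := by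
  decide +kernel

theorem r16 : Nat.beq (trF (P.img P.d code) [26,26] (code 26)) P.one = true := by
  decide +kernel

theorem r17 : Nat.beq (trF (P.img P.d code) [27,27,27,27] (code 27)) P.one = true := by
  decide +kernel


end Cfsg.H6.LR.LM
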