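import Cfsg.Agent.H6.LR.LM.D0

set_option autoImplicit false
set_option maxRecDepth 100000
set_option Elab.async false

namespace Cfsg.H6.LR.LM

open Ly.M (P ok)

theorem r18 : Nat.beq (trF (P.img P.d code) [28,28,28,28] (code 28)) P.one = true := by
  decide +kernel

theorem r19 : Nat.beq (trF (P.img P.d code) [29,29,29,29] (code 29)) P.one = true := by
  decide +kernel

theorem r20 : Nat.beq (trF (P.img P.d code) [30,30,30,30] (code 30)) P.one = true := by
  decide +kernel

theorem r21 : Nat.beq (trF (P.img P.d code) [3,8,3,10] (code 8)) P.one = true := by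
  decide +kernel

theorem r22 : Nat.beq (trF (P.img P.d code) [9,9] (code 9)) P.one = true := by
  decide +kernel

theorem r23 : Nat.beq (trF (P.img P.d code) [1,10,1] (code 9)) P.one = true := by
  decide +kernel

theorem r24 : Nat.beq (trF (P.img P.d code) [2,10,2] (code 9)) P.one = true := by
  decide +kernel

theorem r25 : Nat.beq (trF (P.img P.d code) [3,10,4] (code 9)) P.one = true := by
  decide +kernel

theorem r26 : Nat.beq (trF (P.img P.d code) [5,10,5] (code 9)) P.one = true := by
  decide +kernel

theorem r27 : Nat.beq (trF (P.img P.d code) [6,10,6] (code 9)) P.one = true := by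
  decide +kernel

theorem r28 : Nat.beq (trF (P.img P.d code) [7,10,7] (code 9)) P.one = true := by
  decide +kernel

theorem r29 : Nat.beq (trF (P.img P.d code) [8,10,8] (code 9)) P.one = true := by
  decide +kernel

theorem r30 : Nat.beq (trF (P.img P.d code) [1,2,7,4,6,3] (code 12)) P.one = true := by
  decide +kernel

theorem r31 : Nat.beq (trF (P.img P.d code) [7,6,1,2,4,6] (code 14)) P.one = true := by
  decide +kernel

theorem r32 : Nat.beq (trF (P.img P.d code) [1,2,4,6,7,6] (code 16)) P.one = true := by
  decide +kernel

theorem r33 : Nat.beq (trF (P.img P.d code) [6,3,8,6,7,6,8,4,6] (code 17)) P.one = true := by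
  decide +kernel

theorem r34 : Nat.beq (trF (P.img P.d code) [9,18,12] (code 19)) P.one = true := by
  decide +kernel

theorem r35 : Nat.beq (trF (P.img P.d code) [11,18,10] (code 19)) P.one = true := by
  decide +kernel

theorem r36 : Nat.beq (trF (P.img P.d code) [13,18,14] (code 19)) P.one = true := by
  decide +kernel

theorem r37 : Nat.beq (trF (P.img P.d code) [15,18,15] (code 19)) P.one = true := by
  decide +kernel


end Cfsg.H6.LR.LM
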